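import Cfsg.Agent.Lib.M24Data.CommTree

/-!
# Stabilisers of families of subsets given by lists of masks
-/

set_option autoImplicit false

namespace Cfsg.Agent.Lib.M24Data.FamStab

open Cfsg Cfsg.Agent.Lib.Golay.Core Cfsg.Agent.Lib.Golay.Perm Cfsg.Agent.Lib.M24Data.Tree
  Cfsg.Agent.Lib.M24Data.CommTree Cfsg.Agent.Lib.M24Data.Universe Cfsg.Agent.Lib.M24Data.OctadPairs
open scoped Pointwise

/-- The test that a packed permutation permutes a family of masks. -/
def stabL (M : List ℕ) (Q : ℕ) : Bool := allL (fun m => memL (mapMask Q m) M) M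

theorem smul_fam_of_stabL {M : List ℕ} {Q : ℕ} (hQ : validPerm Q = true) (h : stabL M Q = true) :
    g Q • famOf M = famOf M := by
  apply Finset.eq_of_subset_of_card_le
  · intro s hs
    obtain ⟨t, ht, rfl⟩ := Finset.mem_smul_finset.mp hs
    obtain ⟨a, ha, rfl⟩ := mem_famOf.mp ht
    show g Q • setOf a ∈ _
    rw [smul_setOf hQ]
    exact mem_famOf.mpr ⟨_, memL_iff.mp (allL_iff.mp h a ha), rfl⟩
  · rw [Finset.card_smul_finset]

theorem stabL_of_smul {M : List ℕ} {Q : ℕ} (hQ : validPerm Q = true) (hM : ∀ m ∈ M, m < 2 ^ 24)
    (h : g Q • famOf M = famOf M) : stabL M Q = true := by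
  apply allL_iff.mpr
  intro m hm
  have h1 : g Q • setOf m ∈ famOf M := by
    rw [← h]
    exact Finset.smul_mem_smul_finset (mem_famOf.mpr ⟨m, hm, rfl⟩)
  rw [smul_setOf hQ] at h1
  obtain ⟨a, ha, hae⟩ := mem_famOf.mp h1
  have h2 := eq_of_setOf_eq (hM a ha) (mapMask_lt hQ m) hae
  rw [← h2]
  exact memL_iff.mpr ha

/-- The pruning test for the stabiliser of a family. -/
def famPruneOne (M F : List ℕ) (P : ℕ) : Bool :=
  anyL (fun m => !(anyL (fun m' => allL (fun x => !(Nat.testBit m x) || Nat.testBit m' (img P x)) F) M)) M

theorem famPruneOne_sound {σ : Equiv.Perm GolayPt} {M F : List ℕ} {P : ℕ} (hP : Good P)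
    (hF : ∀ x ∈ F, x < 24) (hσ : σ • famOf M = famOf M) (hag : ∀ x ∈ F, σ (pt x) = pt (img P x)) :
    famPruneOne M F P = false := by
  unfold famPruneOne
  by_contra hc
  have hc' : anyL (fun m => !(anyL (fun m' => allL (fun x => !(Nat.testBit m x) || Nat.testBit m' (img P x)) F) M)) M = true := by
    simpa using hc
  obtain ⟨m, hm, h1⟩ := anyL_iff.mp hc'
  have h2 : σ • setOf m ∈ famOf M := by
    rw [← hσ]
    exact Finset.smul_mem_smul_finset (mem_famOf.mpr ⟨m, hm, rfl⟩)
  obtain ⟨m', hm', hme⟩ := mem_famOf.mp h2
  have h3 : anyL (fun m' => allL (fun x => !(Nat.testBit m x) || Nat.testBit m' (img P x)) F) M = true := by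
    apply anyL_iff.mpr
    refine ⟨m', hm', allL_iff.mpr ?_⟩
    intro x hx
    cases hb : Nat.testBit m x with
    | false => rfl
    | true =>
      have h4 : pt x ∈ setOf m := by
        rw [mem_setOf, idx_pt (hF x hx)]
        exact hb
      have h5 : σ (pt x) ∈ setOf m' := by
        rw [hme]
        exact Finset.smul_mem_smul_finset h4
      rw [hag x hx, mem_setOf, idx_pt (valid_img_lt hP.1 (hF x hx))] at h5
      simp [h5]
  rw [h3] at h1
  exact absurd h1 (by simp)

/-- The pruning test for the stabiliser of several families. -/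
def famPrune (LL : List (List ℕ)) (F : List ℕ) (P : ℕ) : Bool :=
  allL (fun i => Nat.blt i 24) F && LL.any (fun M => famPruneOne M F P)

theorem famPrune_sound {LL : List (List ℕ)} (σ : Equiv.Perm GolayPt)
    (hσ : ∀ M ∈ LL, σ • famOf M = famOf M) (F : List ℕ) (P : ℕ) (hP : Good P)
    (hag : ∀ x ∈ F, σ (pt x) = pt (img P x)) : famPrune LL F P = false := by
  unfold famPrune
  cases h : allL (fun i => Nat.blt i 24) F with
  | false => rfl
  | true =>
    have hF : ∀ x ∈ F, x < 24 := fun i hi => Nat.le_of_ble_eq_true (allL_iff.mp h i hi)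
    rw [Bool.true_and]
    by_contra hc
    have hc' : LL.any (fun M => famPruneOne M F P) = true := by simpa using hc
    obtain ⟨M, hM, h1⟩ := List.any_eq_true.mp hc'
    rw [famPruneOne_sound hP hF (hσ M hM) hag] at h1
    exact absurd h1 (by simp)

end Cfsg.Agent.Lib.M24Data.FamStab

namespace Cfsg.Agent.Lib.M24Data.FamStab

open Cfsg Cfsg.Agent.Lib.Golay.Core Cfsg.Agent.Lib.Golay.Perm Cfsg.Agent.Lib.M24Data.Tree
  Cfsg.Agent.Lib.M24Data.CommTree Cfsg.Agent.Lib.M24Data.Universe Cfsg.Agent.Lib.M24Data.OctadPairs

/-- A cheaper pruning test for `σ * g x = g y * σ`: only the newest base point is considered.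
`xi` is meant to be the inverse of `x`. -/
def pruneN (x xi y : ℕ) : List ℕ → ℕ → Bool
  | [], _ => false
  | b :: F, P =>
    Nat.blt b 24 && allL (fun i => Nat.blt i 24) F &&
      ((memL (img x b) (b :: F) && !(Nat.beq (img P (img x b)) (img y (img P b)))) ||
        (memL (img xi b) (b :: F) && Nat.beq (img x (img xi b)) b &&
          !(Nat.beq (img P b) (img y (img P (img xi b))))))

theorem pruneN_sound {x xi y : ℕ} (hx : validPerm x = true) (hy : validPerm y = true) :
    ∀ σ : Equiv.Perm GolayPt, σ * g x = g y * σ → ∀ (F : List ℕ) (P : ℕ), Good P →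
      (∀ i ∈ F, σ (pt i) = pt (img P i)) → pruneN x xi y F P = false := by
  intro σ hσ F P hP hag
  cases F with
  | nil => rfl
  | cons b F =>
    simp only [pruneN]
    cases h1 : Nat.blt b 24 with
    | false => rfl
    | true =>
      cases h2 : allL (fun i => Nat.blt i 24) F with
      | false => simp
      | true =>
        have hb : b < 24 := Nat.le_of_ble_eq_true h1
        have hF : ∀ i ∈ b :: F, i < 24 := by
          intro i hi
          rcases List.mem_cons.mp hi with rfl | hi
          · exact hb
          · exact Nat.le_of_ble_eq_true (allL_iff.mp h2 i hi)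
        have key : ∀ i ∈ b :: F, img x i ∈ b :: F → img P (img x i) = img y (img P i) := by
          intro i hi hxi
          have hi24 := hF i hi
          have e := congrArg (fun f : Equiv.Perm GolayPt => f (pt i)) hσ
          simp only [Equiv.Perm.mul_apply] at e
          rw [g_pt hx hi24, hag _ hxi, hag _ hi, g_pt hy (valid_img_lt hP.1 hi24)] at e
          exact pt_injOn (valid_img_lt hP.1 (hF _ hxi)) (valid_img_lt hy (valid_img_lt hP.1 hi24)) e
        simp only [Bool.true_and, Bool.or_eq_false_iff, Bool.and_eq_false_iff, Bool.not_eq_false']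
        refine ⟨?_, ?_⟩
        · by_cases hm : img x b ∈ b :: F
          · right
            rw [key b List.mem_cons_self hm]
            exact Nat.beq_refl _
          · left
            cases h3 : memL (img x b) (b :: F) with
            | false => rfl
            | true => exact absurd (memL_iff.mp h3) hm
        · by_cases hm : img xi b ∈ b :: F
          · by_cases hc : img x (img xi b) = b
            · right
              have := key _ hm (by rw [hc]; exact List.mem_cons_self)
              rw [hc] at this
              rw [this]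
              exact Nat.beq_refl _
            · left
              right
              cases h3 : Nat.beq (img x (img xi b)) b with
              | false => rfl
              | true => exact absurd (Nat.eq_of_beq_eq_true h3) hc
          · left
            left
            cases h3 : memL (img xi b) (b :: F) with
            | false => rfl
            | true => exact absurd (memL_iff.mp h3) hm

end Cfsg.Agent.Lib.M24Data.FamStab
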